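import Cfsg.Agent.Lib.PermComp.OutP.M23T.Z5Abs

/-!
# Elements preserving the transpositions that commute with `z` normalize `⟨z⟩`
-/

set_option autoImplicit false
set_option linter.unusedSectionVars false
set_option linter.unusedVariables false
set_option linter.style.longLine false

namespace Cfsg.Agent.Lib.FiMax

open Cfsg Subgroup
open Cfsg.Agent.Lib.PermComp.OutP.M23T.Z5

variable {G : Type*} [Group G] [Finite G] {D : Set G} {z : G} {a : Fin 8 → G}

/-- The version of `Raw5.Q_norm` for an element that preserves the subgroup generated by `S0`. -/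
theorem Q_norm_of_X (h : Raw5 D z a) {g : G}
    (hX1 : ∀ x ∈ closure (S0 D z), g * x * g⁻¹ ∈ closure (S0 D z))
    (hX2 : ∀ x ∈ closure (S0 D z), g⁻¹ * x * g ∈ closure (S0 D z)) :
    ∀ y ∈ QQ a, g * y * g⁻¹ ∈ QQ a := by
  let Qg : Subgroup G := (QQ a).map (MulAut.conj g).toMonoidHom
  have hmg : ∀ w, w ∈ Qg ↔ ∃ y ∈ QQ a, g * y * g⁻¹ = w := by
    intro w
    constructor
    · rintro ⟨y, hy, rfl⟩
      exact ⟨y, hy, rfl⟩
    · rintro ⟨y, hy, rfl⟩
      exact ⟨y, hy, rfl⟩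
  have hpQ := h.rel.pg_card.1
  have hpg : IsPGroup 3 Qg := hpQ.map _
  have hXg : Qg ≤ closure (S0 D z) := by
    intro w hw
    obtain ⟨y, hy, rfl⟩ := (hmg w).1 hw
    exact hX1 _ (h.Q_le_X hy)
  have hXnorm : ∀ x ∈ closure (S0 D z), ∀ w ∈ Qg, x * w * x⁻¹ ∈ Qg := by
    intro x hx w hw
    obtain ⟨y, hy, rfl⟩ := (hmg w).1 hw
    have hx' : g⁻¹ * x * g ∈ closure (S0 D z) := hX2 x hx
    refine (hmg _).2 ⟨_, (h.X_conj hx').1 y hy, ?_⟩
    group
  have hnorm : QQ a ≤ normalizer (Qg : Set G) := by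
    intro x hx
    rw [mem_normalizer_iff]
    have hx' := h.Q_le_X hx
    intro w
    refine ⟨hXnorm x hx' w, fun hw => ?_⟩
    have := hXnorm x⁻¹ (inv_mem hx') _ hw
    have e : x⁻¹ * (x * w * x⁻¹) * x⁻¹⁻¹ = w := by group
    rwa [e] at this
  have hp : IsPGroup 3 (QQ a ⊔ Qg : Subgroup G) := IsPGroup.to_sup_of_normal_right' hpQ hpg hnorm
  have hRX : (QQ a ⊔ Qg) ≤ closure (S0 D z) := sup_le h.Q_le_X hXg
  have hle := h.hR (QQ a ⊔ Qg) hp le_sup_left
    (fun r hr => by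
      have e := (h.X_comm (hRX hr)).eq
      rw [e]
      simp [mem_zpowers])
    (fun r hr x hx => (h.X_conj (hRX hr)).1 x hx)
    (fun d hd r hr => by
      have hdX : d ∈ closure (S0 D z) := Subgroup.subset_closure hd
      have hle2 : QQ a ⊔ Qg ≤ (QQ a ⊔ Qg).comap (MulAut.conj d).toMonoidHom := by
        refine sup_le ?_ ?_
        · intro y hy
          exact (le_sup_left : QQ a ≤ QQ a ⊔ Qg) ((h.X_conj hdX).1 y hy)
        · intro y hy
          exact (le_sup_right : Qg ≤ QQ a ⊔ Qg) (hXnorm d hdX y hy)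
      exact hle2 hr)
  intro y hy
  exact hle ((le_sup_right : Qg ≤ QQ a ⊔ Qg) ((hmg _).2 ⟨y, hy, rfl⟩))

/-- Conjugation preserves the subgroup generated by a set preserved elementwise. -/
theorem conj_closure_S0 {S : Set G} {g : G} (h1 : ∀ d ∈ S, g * d * g⁻¹ ∈ S)
    {x : G} (hx : x ∈ closure S) : g * x * g⁻¹ ∈ closure S := by
  induction hx using closure_induction with
  | mem d hd => exact Subgroup.subset_closure (h1 d hd)
  | one => simp
  | mul u w _ _ hu hw =>
    have e : g * (u * w) * g⁻¹ = (g * u * g⁻¹) * (g * w * g⁻¹) := by group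
    rw [e]
    exact mul_mem hu hw
  | inv u _ hu =>
    have e : g * u⁻¹ * g⁻¹ = (g * u * g⁻¹)⁻¹ := by group
    rw [e]
    exact inv_mem hu

/-- A conjugate of `z` by an element preserving `S0` (both ways) is a power of `z`. -/
theorem conj_z_mem (h : Raw5 D z a) {g : G}
    (h1 : ∀ d ∈ S0 D z, g * d * g⁻¹ ∈ S0 D z) (h2 : ∀ d ∈ S0 D z, g⁻¹ * d * g ∈ S0 D z) :
    g * z * g⁻¹ ∈ zpowers z := by
  have h2' : ∀ d ∈ S0 D z, g⁻¹ * d * g⁻¹⁻¹ ∈ S0 D z := by
    intro d hd
    rw [inv_inv]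
    exact h2 d hd
  have hX1 : ∀ x ∈ closure (S0 D z), g * x * g⁻¹ ∈ closure (S0 D z) :=
    fun x hx => conj_closure_S0 h1 hx
  have hX2 : ∀ x ∈ closure (S0 D z), g⁻¹ * x * g ∈ closure (S0 D z) := by
    intro x hx
    have := conj_closure_S0 h2' hx
    rwa [inv_inv] at this
  have hQ := Q_norm_of_X h hX1 hX2
  refine h.rel.mem_W_of_comm (hQ z h.rel.z_mem) fun k => ?_
  have h3 : g⁻¹ * a k * g ∈ closure (S0 D z) := hX2 _ (h.qX k)
  have h4 := (h.X_comm h3).eq
  show g * z * g⁻¹ * a k = a k * (g * z * g⁻¹)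
  calc g * z * g⁻¹ * a k = g * (z * (g⁻¹ * a k * g)) * g⁻¹ := by group
    _ = g * ((g⁻¹ * a k * g) * z) * g⁻¹ := by rw [h4]
    _ = a k * (g * z * g⁻¹) := by group

/-- An element preserving `S0` (both ways) normalizes `⟨z⟩`. -/
theorem norm_of_S0 (h : Raw5 D z a) {g : G}
    (h1 : ∀ d ∈ S0 D z, g * d * g⁻¹ ∈ S0 D z) (h2 : ∀ d ∈ S0 D z, g⁻¹ * d * g ∈ S0 D z) :
    g ∈ normalizer ((zpowers z : Subgroup G) : Set G) := by
  have hz1 := conj_z_mem h h1 h2
  have hz2 : g⁻¹ * z * g⁻¹⁻¹ ∈ zpowers z := by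
    refine conj_z_mem h (g := g⁻¹) ?_ ?_
    · intro d hd
      rw [inv_inv]
      exact h2 d hd
    · intro d hd
      rw [inv_inv]
      exact h1 d hd
  have key : ∀ k : G, k * z * k⁻¹ ∈ zpowers z → ∀ x ∈ zpowers z, k * x * k⁻¹ ∈ zpowers z := by
    intro k hk x hx
    obtain ⟨m, rfl⟩ := mem_zpowers_iff.1 hx
    have e : k * z ^ m * k⁻¹ = (k * z * k⁻¹) ^ m := (conj_zpow).symm
    rw [e]
    exact zpow_mem hk m
  rw [mem_normalizer_iff]
  intro x
  constructor
  · exact key g hz1 x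
  · intro hx
    have := key g⁻¹ hz2 _ hx
    have e : g⁻¹ * (g * x * g⁻¹) * g⁻¹⁻¹ = x := by group
    rwa [e] at this

/-- An element commuting with `z` normalizes `⟨z⟩`. -/
theorem mem_norm_of_comm {d : G} (hd : Commute d z) :
    d ∈ normalizer ((zpowers z : Subgroup G) : Set G) := by
  have hc : ∀ x ∈ zpowers z, Commute d x := by
    intro x hx
    obtain ⟨m, rfl⟩ := mem_zpowers_iff.1 hx
    exact hd.zpow_right m
  rw [mem_normalizer_iff]
  intro x
  constructor
  · intro hx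
    have e : d * x * d⁻¹ = x := by rw [(hc x hx).eq]; group
    rw [e]
    exact hx
  · intro hx
    have e3 : d * x * d⁻¹ = x := by
      have e2 : d * (d * x * d⁻¹) = (d * x * d⁻¹) * d := (hc _ hx).eq
      have e4 : (d * x * d⁻¹) * d = d * x := by group
      rw [e4] at e2
      exact mul_left_cancel e2
    rw [e3] at hx
    exact hx

/-- The normalizer of `⟨z⟩` is a maximal subgroup as soon as every subgroup above it that contains a
member of `D` outside `S0` is the whole group. -/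
theorem coatom_norm (h : Raw5 D z a) (hne : normalizer ((zpowers z : Subgroup G) : Set G) ≠ ⊤)
    (H1 : ∀ K : Subgroup G, normalizer ((zpowers z : Subgroup G) : Set G) ≤ K →
      ∀ d ∈ D, d ∉ S0 D z → d ∈ K → K = ⊤) :
    IsCoatom (normalizer ((zpowers z : Subgroup G) : Set G)) := by
  refine ⟨hne, fun K hK => ?_⟩
  by_contra hKt
  have hKS : ∀ d ∈ D, d ∈ K → d ∈ S0 D z := by
    intro d hd hdK
    by_contra hn
    exact hKt (H1 K hK.le d hd hn hdK)
  have hSK : ∀ d ∈ S0 D z, d ∈ K := fun d hd => hK.le (mem_norm_of_comm hd.2)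
  have hle : K ≤ normalizer ((zpowers z : Subgroup G) : Set G) := by
    intro k hk
    refine norm_of_S0 h ?_ ?_
    · intro d hd
      exact hKS _ (h.dc k d hd.1) (K.mul_mem (K.mul_mem hk (hSK d hd)) (K.inv_mem hk))
    · intro d hd
      have := h.dc k⁻¹ d hd.1
      rw [inv_inv] at this
      exact hKS _ this (K.mul_mem (K.mul_mem (K.inv_mem hk) (hSK d hd)) hk)
  exact absurd hle (not_le_of_gt hK)

end Cfsg.Agent.Lib.FiMax
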