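import Mathlib
import Cfsg.Agent.Lib.FiMax.LL

/-!
# A permutation of prime order at least five of the thirty-six transpositions cannot respect `LL`
-/

set_option autoImplicit false
set_option linter.unusedSectionVars false
set_option linter.unusedVariables false
set_option linter.style.longLine false

namespace Cfsg.Agent.Lib.FiMax

/-- The table has values below 36. -/
theorem LL_lt : ∀ p q : Fin 36, LL p.1 q.1 < 36 := by decide +kernel

/-- `LL p q = q` exactly for different blocks or equal arguments. -/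
theorem LL_eq_iff : ∀ p q : Fin 36, LL p.1 q.1 = q.1 ↔ (p.1 / 9 ≠ q.1 / 9 ∨ p = q) := by
  decide +kernel

/-- Third point of a line. -/
theorem LL_third : ∀ p q : Fin 36, p.1 / 9 = q.1 / 9 → p ≠ q →
    LL p.1 q.1 ≠ p.1 ∧ LL p.1 q.1 ≠ q.1 ∧ LL p.1 q.1 / 9 = p.1 / 9 := by
  decide +kernel

/-- A point off a line gives a new point. -/
theorem LL_fifth : ∀ p q s : Fin 36, p.1 / 9 = q.1 / 9 → p.1 / 9 = s.1 / 9 → p ≠ q → s ≠ p → s ≠ q →
    s.1 ≠ LL p.1 q.1 →
    (LL s.1 p.1 ≠ s.1 ∧ LL s.1 p.1 ≠ p.1 ∧ LL s.1 p.1 ≠ q.1 ∧ LL s.1 p.1 ≠ LL p.1 q.1) := by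
  decide +kernel

section

variable (σ : Equiv.Perm (Fin 36))

/-- The commuting relation is preserved by the powers. -/
theorem comm_pow
    (hL : ∀ p q : Fin 36, ∀ m : Fin 36, m.1 = LL p.1 q.1 → (σ m).1 = LL (σ p).1 (σ q).1)
    (n : ℕ) (p q : Fin 36) (h : LL p.1 q.1 = q.1) :
    LL ((σ ^ n) p).1 ((σ ^ n) q).1 = ((σ ^ n) q).1 := by
  induction n with
  | zero => simpa using h
  | succ n ih =>
    rw [pow_succ', Equiv.Perm.mul_apply, Equiv.Perm.mul_apply]
    exact (hL _ _ _ ih.symm).symm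

/-- Blocks are preserved both ways. -/
theorem block_iff {r : ℕ} (hr0 : 0 < r) (hσ : σ ^ r = 1)
    (hL : ∀ p q : Fin 36, ∀ m : Fin 36, m.1 = LL p.1 q.1 → (σ m).1 = LL (σ p).1 (σ q).1)
    (p q : Fin 36) : p.1 / 9 = q.1 / 9 ↔ (σ p).1 / 9 = (σ q).1 / 9 := by
  have hinv : ∀ x, (σ ^ (r - 1)) (σ x) = x := by
    intro x
    rw [← Equiv.Perm.mul_apply, ← pow_succ, Nat.sub_add_cancel hr0, hσ]
    rfl
  by_cases hpq : p = q
  · subst hpq
    simp
  have hne : σ p ≠ σ q := fun h => hpq (σ.injective h)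
  constructor
  · intro h
    by_contra h'
    have h1 : LL (σ p).1 (σ q).1 = (σ q).1 := (LL_eq_iff _ _).2 (Or.inl h')
    have h2 := comm_pow σ hL (r - 1) _ _ h1
    rw [hinv, hinv] at h2
    rcases (LL_eq_iff _ _).1 h2 with h3 | h3
    · exact h3 h
    · exact hpq h3
  · intro h
    by_contra h'
    have h1 : LL p.1 q.1 = q.1 := (LL_eq_iff _ _).2 (Or.inl h')
    have h2 := comm_pow σ hL 1 _ _ h1
    rw [pow_one] at h2
    rcases (LL_eq_iff _ _).1 h2 with h3 | h3
    · exact h3 h
    · exact hne h3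

/-- The blocks are fixed. -/
theorem block_fixed {r : ℕ} (hr : r.Prime) (h5 : 5 ≤ r) (hσ : σ ^ r = 1)
    (hL : ∀ p q : Fin 36, ∀ m : Fin 36, m.1 = LL p.1 q.1 → (σ m).1 = LL (σ p).1 (σ q).1)
    (p : Fin 36) : (σ p).1 / 9 = p.1 / 9 := by
  have hb := block_iff σ hr.pos hσ hL
  have hlt : ∀ x : Fin 36, x.1 / 9 < 4 := fun x => by have := x.2; omega
  let rep : Fin 4 → Fin 36 := fun b => ⟨9 * b.1, by have := b.2; omega⟩
  have hrep : ∀ b : Fin 4, (rep b).1 / 9 = b.1 := by
    intro b
    show 9 * b.1 / 9 = b.1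
    omega
  let g : Fin 4 → Fin 4 := fun b => ⟨(σ (rep b)).1 / 9, hlt _⟩
  have hg : ∀ x : Fin 36, (σ x).1 / 9 = (g ⟨x.1 / 9, hlt x⟩).1 := by
    intro x
    refine (hb x (rep ⟨x.1 / 9, hlt x⟩)).1 ?_
    rw [hrep]
  have hginj : Function.Injective g := by
    intro b c hbc
    have h1 : (σ (rep b)).1 / 9 = (σ (rep c)).1 / 9 := congrArg Fin.val hbc
    have h2 := (hb _ _).2 h1
    rw [hrep, hrep] at h2
    exact Fin.ext h2
  let τ : Equiv.Perm (Fin 4) := Equiv.ofBijective g (Finite.injective_iff_bijective.1 hginj)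
  have hτ : ∀ b, τ b = g b := fun b => rfl
  have hpow : ∀ (n : ℕ) (x : Fin 36), ((σ ^ n) x).1 / 9 = ((τ ^ n) ⟨x.1 / 9, hlt x⟩).1 := by
    intro n x
    induction n with
    | zero => simp
    | succ n ih =>
      rw [pow_succ', pow_succ', Equiv.Perm.mul_apply, Equiv.Perm.mul_apply, hτ, hg]
      congr 2
      exact Fin.ext ih
  have hτr : τ ^ r = 1 := by
    ext b
    have h1 := hpow r (rep b)
    rw [hσ] at h1
    have h2 : (⟨(rep b).1 / 9, hlt _⟩ : Fin 4) = b := Fin.ext (hrep b)
    rw [h2] at h1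
    rw [Equiv.Perm.one_apply]
    have h3 : ((1 : Equiv.Perm (Fin 36)) (rep b)).1 / 9 = b.1 := hrep b
    omega
  have hτ1 : τ = 1 := by
    have h1 : orderOf τ ∣ r := orderOf_dvd_of_pow_eq_one hτr
    have h2 : orderOf τ ∣ 24 := by
      have := orderOf_dvd_card (x := τ)
      have hc : Fintype.card (Equiv.Perm (Fin 4)) = 24 := by
        rw [Fintype.card_perm, Fintype.card_fin]
        rfl
      rwa [hc] at this
    have hnd : ¬ r ∣ 24 := by
      intro hd
      have hle := Nat.le_of_dvd (by norm_num) hd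
      interval_cases r <;> first | (norm_num at hr; done) | (norm_num at hd; done)
    rcases (Nat.dvd_prime hr).1 h1 with h3 | h3
    · exact orderOf_eq_one_iff.1 h3
    · rw [h3] at h2
      exact absurd h2 hnd
  have h := hpow 1 p
  rw [pow_one, pow_one, hτ1] at h
  simpa using h

/-- Each block is fixed pointwise. -/
theorem block_pointwise {r : ℕ} (hr : r.Prime) (h5 : 5 ≤ r) (hσ : σ ^ r = 1)
    (hL : ∀ p q : Fin 36, ∀ m : Fin 36, m.1 = LL p.1 q.1 → (σ m).1 = LL (σ p).1 (σ q).1)
    (b : ℕ) (x : Fin 36) (hx : x.1 / 9 = b) : σ x = x := by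
  classical
  haveI : Fact r.Prime := ⟨hr⟩
  have hfix := block_fixed σ hr h5 hσ hL
  let X := {p : Fin 36 // p.1 / 9 = b}
  have hb4 : b < 4 := by have := x.2; omega
  have hcardX : Fintype.card X = 9 := by
    rw [Fintype.card_subtype]
    interval_cases b <;> decide +kernel
  let τ : Equiv.Perm X := σ.subtypePerm (fun p => by rw [hfix p])
  have hτpow : τ ^ r = 1 := by
    ext y
    have h1 : ((τ ^ r) y).1 = (σ ^ r) y.1 := by
      generalize r = n
      induction n with
      | zero => rfl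
      | succ n ih =>
        rw [pow_succ', pow_succ', Equiv.Perm.mul_apply, Equiv.Perm.mul_apply, ← ih]
        rfl
    rw [h1, hσ]
    rfl
  let f : Function.End X := (τ : X → X)
  have hfr : f ^ r ^ 1 = 1 := by
    rw [pow_one]
    funext y
    have h1 : ∀ n : ℕ, (f ^ n) y = (τ ^ n) y := by
      intro n
      induction n with
      | zero => rfl
      | succ n ih =>
        rw [pow_succ', pow_succ', Equiv.Perm.mul_apply, ← ih]
        rfl
    rw [h1, hτpow]
    rfl
  have hmod := Equiv.Perm.card_fixedPoints_modEq (f := f) (p := r) (n := 1) hfr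
  let A : Finset X := Finset.univ.filter (fun y => σ y.1 = y.1)
  have hAcard : Fintype.card (Function.fixedPoints f) = A.card := by
    apply Fintype.card_of_subtype
    intro y
    simp only [A, Finset.mem_filter, Finset.mem_univ, true_and]
    constructor
    · intro h
      exact Subtype.ext h
    · intro h
      exact congrArg Subtype.val h
  rw [hcardX, hAcard] at hmod
  have hAle : A.card ≤ 9 := by
    rw [← hcardX]
    exact Finset.card_le_univ A
  -- the fixed set is closed
  have hclosed : ∀ y ∈ A, ∀ w ∈ A, ∀ m : X, m.1.1 = LL y.1.1 w.1.1 → m ∈ A := by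
    intro y hy w hw m hm
    simp only [A, Finset.mem_filter, Finset.mem_univ, true_and] at hy hw ⊢
    apply Fin.ext
    rw [hL y.1 w.1 m.1 hm, hy, hw, ← hm]
  -- the third point
  have hthird : ∀ y w : X, y ≠ w → ∃ m : X, m.1.1 = LL y.1.1 w.1.1 ∧ m ≠ y ∧ m ≠ w := by
    intro y w hyw
    have hyw' : y.1 ≠ w.1 := fun h => hyw (Subtype.ext h)
    have hbl : y.1.1 / 9 = w.1.1 / 9 := by rw [y.2, w.2]
    obtain ⟨h1, h2, h3⟩ := LL_third y.1 w.1 hbl hyw'
    refine ⟨⟨⟨LL y.1.1 w.1.1, LL_lt _ _⟩, ?_⟩, rfl, ?_, ?_⟩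
    · show LL y.1.1 w.1.1 / 9 = b
      rw [h3, y.2]
    · intro h
      exact h1 (congrArg (fun t : X => t.1.1) h)
    · intro h
      exact h2 (congrArg (fun t : X => t.1.1) h)
  by_cases hk9 : A.card = 9
  · have hAu : A = Finset.univ := by
      apply Finset.eq_univ_of_card
      rw [hk9, hcardX]
    have : (⟨x, hx⟩ : X) ∈ A := by rw [hAu]; exact Finset.mem_univ _
    simpa [A] using this
  exfalso
  have hk : A.card < 9 := lt_of_le_of_ne hAle hk9
  have hdvd : r ∣ 9 - A.card := (Nat.modEq_iff_dvd' hk.le).1 hmod.symm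
  have hcases : A.card = 2 ∨ A.card = 4 := by
    have hpos : 0 < 9 - A.card := by omega
    have hle := Nat.le_of_dvd hpos hdvd
    have hr9 : r ≤ 9 := by omega
    generalize hc : 9 - A.card = c at hdvd hle hpos
    have hc9 : c ≤ 9 := by omega
    interval_cases r
    · have : c = 5 := by omega
      omega
    · norm_num at hr
    · have : c = 7 := by omega
      omega
    · norm_num at hr
    · norm_num at hr
  rcases hcases with h2 | h4
  · obtain ⟨y, w, hyw, hA⟩ := Finset.card_eq_two.1 h2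
    obtain ⟨m, hm, hmy, hmw⟩ := hthird y w hyw
    have hmA := hclosed y (by rw [hA]; simp) w (by rw [hA]; simp) m hm
    rw [hA] at hmA
    simp at hmA
    rcases hmA with h | h
    · exact hmy h
    · exact hmw h
  · obtain ⟨y, hy, w, hw, hyw⟩ := Finset.one_lt_card.1 (by omega : 1 < A.card)
    obtain ⟨t, ht, hty, htw⟩ := hthird y w hyw
    have htA := hclosed y hy w hw t ht
    have hsub : (({y, w, t} : Finset X)).card < A.card := by
      have : (({y, w, t} : Finset X)).card ≤ 3 := Finset.card_le_three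
      omega
    obtain ⟨s, hs, hs'⟩ := Finset.exists_mem_notMem_of_card_lt_card hsub
    simp only [Finset.mem_insert, Finset.mem_singleton, not_or] at hs'
    obtain ⟨hsy, hsw, hst⟩ := hs'
    have hyw' : y.1 ≠ w.1 := fun h => hyw (Subtype.ext h)
    have hsy' : s.1 ≠ y.1 := fun h => hsy (Subtype.ext h)
    have hsw' : s.1 ≠ w.1 := fun h => hsw (Subtype.ext h)
    have hst' : s.1.1 ≠ LL y.1.1 w.1.1 := by
      intro h
      apply hst
      apply Subtype.ext
      apply Fin.ext
      rw [h, ht]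
    obtain ⟨u1, u2, u3, u4⟩ := LL_fifth y.1 w.1 s.1 (by rw [y.2, w.2]) (by rw [y.2, s.2]) hyw' hsy' hsw' hst'
    obtain ⟨u, hu, -, -⟩ := hthird s y hsy
    have huA := hclosed s hs y hy u hu
    have huy : u ≠ y := fun h => u2 (by rw [← hu, h])
    have hus : u ≠ s := fun h => u1 (by rw [← hu, h])
    have huw : u ≠ w := fun h => u3 (by rw [← hu, h])
    have hut : u ≠ t := fun h => u4 (by rw [← hu, h, ht])
    have hsubset : ({y, w, t, s, u} : Finset X) ⊆ A := by
      intro v hv
      simp only [Finset.mem_insert, Finset.mem_singleton] at hv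
      rcases hv with rfl | rfl | rfl | rfl | rfl <;> assumption
    have hc5 : ({y, w, t, s, u} : Finset X).card = 5 := by
      rw [Finset.card_insert_of_notMem, Finset.card_insert_of_notMem, Finset.card_insert_of_notMem,
        Finset.card_insert_of_notMem, Finset.card_singleton]
      · simp only [Finset.mem_singleton]
        exact fun h => hus h.symm
      · simp only [Finset.mem_insert, Finset.mem_singleton, not_or]
        exact ⟨fun h => hst h.symm, fun h => hut h.symm⟩
      · simp only [Finset.mem_insert, Finset.mem_singleton, not_or]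
        exact ⟨fun h => htw h.symm, fun h => hsw h.symm, fun h => huw h.symm⟩
      · simp only [Finset.mem_insert, Finset.mem_singleton, not_or]
        exact ⟨hyw, fun h => hty h.symm, fun h => hsy h.symm, fun h => huy h.symm⟩
    have := Finset.card_le_card hsubset
    omega

/-- The main statement. -/
theorem perm36 {r : ℕ} (hr : r.Prime) (h5 : 5 ≤ r) (hσ : σ ^ r = 1)
    (hL : ∀ p q : Fin 36, ∀ m : Fin 36, m.1 = LL p.1 q.1 → (σ m).1 = LL (σ p).1 (σ q).1) :
    σ = 1 := by
  ext x
  rw [block_pointwise σ hr h5 hσ hL _ x rfl]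
  rfl

end

end Cfsg.Agent.Lib.FiMax
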