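import Cfsg.Agent.Lib.PermComp.OutP.M23T.Z5Abs
import Cfsg.Agent.Lib.FiMax.LL
import Cfsg.Agent.Lib.FiMax.Perm36
import Cfsg.Agent.Lib.Char.Burnside

/-!
# No elements of prime order at least five in the normalizer (abstract part)
-/

set_option autoImplicit false
set_option linter.unusedSectionVars false
set_option linter.unusedVariables false
set_option linter.style.longLine false

namespace Cfsg.Agent.Lib.FiMax

open Cfsg.Agent.Lib.PermComp.OutP.M23T.Z5 Subgroup

section
variable {G : Type*} [Group G] [Finite G] {D : Set G} {z : G} {a : Fin 8 → G}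

theorem LL_lt_aux : ∀ p : Fin 36, ∀ q : Fin 36, LL p.1 q.1 < 36 := by decide +kernel

theorem LL_zero : ∀ q : Fin 36, 9 ≤ q.1 → LL 0 q.1 = q.1 := by decide +kernel

theorem LL_nine : ∀ q : Fin 36, q.1 < 9 → LL 9 q.1 = q.1 := by decide +kernel

/-- Conjugation by `x` in the normalizer has a fixed point on the 324 members. -/
theorem exists_fixed (h : Raw5 D z a) (eS : ℕ → G) (h1 : ∀ r < 324, eS r ∈ S0 D z)
    (h2 : ∀ d ∈ S0 D z, ∃ r < 324, d = eS r) (hinj : ∀ r < 324, ∀ s < 324, eS r = eS s → r = s)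
    {x : G} (hx : x ∈ normalizer ((zpowers z : Subgroup G) : Set G)) {r : ℕ} (hr : r.Prime) (h5 : 5 ≤ r)
    (hxr : x ^ r = 1) : ∃ p < 324, x * eS p * x⁻¹ = eS p := by
  classical
  have hxi := inv_mem hx
  -- the permutation of the subtype
  let T := {d : G // d ∈ S0 D z}
  let τ : Equiv.Perm T :=
    { toFun := fun d => ⟨x * d.1 * x⁻¹, h.norm_S0 hx d.2⟩
      invFun := fun d => ⟨x⁻¹ * d.1 * x⁻¹⁻¹, h.norm_S0 hxi d.2⟩
      left_inv := fun d => Subtype.ext (by simp only; group)
      right_inv := fun d => Subtype.ext (by simp only; group) }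
  have hτ : ∀ (n : ℕ) (d : T), ((τ ^ n) d).1 = x ^ n * d.1 * (x ^ n)⁻¹ := by
    intro n d
    induction n with
    | zero => simp
    | succ n ih =>
      rw [pow_succ', Equiv.Perm.mul_apply]
      show x * ((τ ^ n) d).1 * x⁻¹ = _
      rw [ih, pow_succ']
      group
  have hτr : τ ^ r ^ 1 = 1 := by
    ext d
    rw [pow_one, hτ, hxr]
    simp
  -- the cardinality
  let e : Fin 324 → T := fun i => ⟨eS i.1, h1 i.1 i.2⟩
  have he : Function.Bijective e := by
    constructor
    · intro i j hij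
      exact Fin.ext (hinj _ i.2 _ j.2 (congrArg Subtype.val hij))
    · rintro ⟨d, hd⟩
      obtain ⟨i, hi, rfl⟩ := h2 d hd
      exact ⟨⟨i, hi⟩, rfl⟩
  have : Fact r.Prime := ⟨hr⟩
  have : Fintype T := Fintype.ofFinite T
  have hcard : Fintype.card T = 324 := by
    rw [← Fintype.card_fin 324]
    exact (Fintype.card_of_bijective he).symm
  have hmod := Equiv.Perm.card_compl_support_modEq (p := r) (n := 1) hτr
  have hne : (τ.support)ᶜ.card ≠ 0 := by
    intro h0
    rw [hcard, h0] at hmod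
    have hd : r ∣ 324 := (Nat.modEq_zero_iff_dvd).1 hmod.symm
    have h6 : (324 : ℕ) = 2 ^ 2 * 3 ^ 4 := by norm_num
    rw [h6] at hd
    rcases (Nat.Prime.dvd_mul hr).1 hd with hd | hd
    · have := (Nat.prime_dvd_prime_iff_eq hr Nat.prime_two).1 (hr.dvd_of_dvd_pow hd)
      omega
    · have := (Nat.prime_dvd_prime_iff_eq hr Nat.prime_three).1 (hr.dvd_of_dvd_pow hd)
      omega
  obtain ⟨d, hd0⟩ := Finset.card_pos.1 (Nat.pos_of_ne_zero hne)
  have hd : τ d = d := by
    rw [Finset.mem_compl, Equiv.Perm.mem_support, not_not] at hd0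
    exact hd0
  obtain ⟨p, hp, hpd⟩ := h2 d.1 d.2
  refine ⟨p, hp, ?_⟩
  have : (τ d).1 = d.1 := congrArg Subtype.val hd
  rw [← hpd]
  exact this

/-- **No element of prime order at least five in the normalizer.** -/
theorem no_prime (h : Raw5 D z a) (eS : ℕ → G) (h1 : ∀ r < 324, eS r ∈ S0 D z)
    (h2 : ∀ d ∈ S0 D z, ∃ r < 324, d = eS r) (hinj : ∀ r < 324, ∀ s < 324, eS r = eS s → r = s)
    (htr : ∀ r < 324, ∃ c ∈ closure (S0 D z), c * eS r * c⁻¹ = eS 0)
    (hcm : ∀ q < 36, ∀ r < 324, Commute (eS q) (eS r) → r < 36)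
    (hL : ∀ p < 36, ∀ q < 36, eS p * eS q * (eS p)⁻¹ = eS (LL p q))
    (ha : ∀ k : Fin 8, a k ∈ closure (eS '' {q | q < 36}))
    {x : G} (hx : x ∈ normalizer ((zpowers z : Subgroup G) : Set G)) {r : ℕ} (hr : r.Prime) (h5 : 5 ≤ r)
    (hxr : x ^ r = 1) : x = 1 := by
  classical
  obtain ⟨p, hp, hpx⟩ := exists_fixed h eS h1 h2 hinj hx hr h5 hxr
  obtain ⟨c, hc, hce⟩ := htr p hp
  -- c lies in the normalizer
  have hcz : Commute c z := h.X_comm hc
  have hcN : c ∈ normalizer ((zpowers z : Subgroup G) : Set G) := by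
    rw [mem_normalizer_iff]
    intro w
    constructor
    · intro hw
      obtain ⟨m, rfl⟩ := mem_zpowers_iff.1 hw
      have : c * z ^ m * c⁻¹ = z ^ m := by
        rw [(hcz.zpow_right m).eq]
        group
      rw [this]
      exact hw
    · intro hw
      obtain ⟨m, hm⟩ := mem_zpowers_iff.1 hw
      have : w = z ^ m := by
        have e : c * w * c⁻¹ = z ^ m := hm.symm
        have e2 : w = c⁻¹ * (z ^ m) * c := by rw [← e]; group
        rw [e2, ((hcz.inv_left).zpow_right m).eq]
        group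
      rw [this]
      exact zpow_mem_zpowers _ _
  set y := c * x * c⁻¹ with hy
  have hyN : y ∈ normalizer ((zpowers z : Subgroup G) : Set G) :=
    mul_mem (mul_mem hcN hx) (inv_mem hcN)
  have hyr : y ^ r = 1 := by
    rw [hy, conj_pow, hxr]
    simp
  have hy0 : y * eS 0 * y⁻¹ = eS 0 := by
    rw [← hce, hy]
    calc c * x * c⁻¹ * (c * eS p * c⁻¹) * (c * x * c⁻¹)⁻¹ = c * (x * eS p * x⁻¹) * c⁻¹ := by group
      _ = c * eS p * c⁻¹ := by rw [hpx]
  -- action on the members
  have hact : ∀ q < 324, ∃ q' < 324, y * eS q * y⁻¹ = eS q' := by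
    intro q hq
    obtain ⟨q', hq', e⟩ := h2 _ (h.norm_S0 hyN (h1 q hq))
    exact ⟨q', hq', e⟩
  have h0lt : (0 : ℕ) < 324 := by norm_num
  have comm_of : ∀ u v : ℕ, eS u * eS v * (eS u)⁻¹ = eS v → Commute (eS u) (eS v) := by
    intro u v e
    show eS u * eS v = eS v * eS u
    calc eS u * eS v = (eS u * eS v * (eS u)⁻¹) * eS u := by group
      _ = eS v * eS u := by rw [e]
  have conj_comm : ∀ u v : G, Commute u v → Commute (y * u * y⁻¹) (y * v * y⁻¹) := by
    intro u v e
    show y * u * y⁻¹ * (y * v * y⁻¹) = y * v * y⁻¹ * (y * u * y⁻¹)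
    calc y * u * y⁻¹ * (y * v * y⁻¹) = y * (u * v) * y⁻¹ := by group
      _ = y * (v * u) * y⁻¹ := by rw [e.eq]
      _ = _ := by group
  -- the members below 36 are preserved
  have hstep9 : ∀ q < 36, 9 ≤ q → ∀ q' < 324, y * eS q * y⁻¹ = eS q' → q' < 36 := by
    intro q hq hq9 q' hq' e
    have h3 := hL 0 (by norm_num) q hq
    have h4 : LL 0 q = q := LL_zero ⟨q, hq⟩ hq9
    rw [h4] at h3
    have h5' := conj_comm _ _ (comm_of 0 q h3)
    rw [hy0, e] at h5'
    exact hcm 0 (by norm_num) q' hq' h5'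
  have hstep : ∀ q < 36, ∀ q' < 324, y * eS q * y⁻¹ = eS q' → q' < 36 := by
    intro q hq q' hq' e
    by_cases hq9 : 9 ≤ q
    · exact hstep9 q hq hq9 q' hq' e
    · obtain ⟨n, hn, en⟩ := hact 9 (by norm_num)
      have hn36 := hstep9 9 (by norm_num) le_rfl n hn en
      have h3 := hL 9 (by norm_num) q hq
      have h4 : LL 9 q = q := LL_nine ⟨q, hq⟩ (show q < 9 by omega)
      rw [h4] at h3
      have h5' := conj_comm _ _ (comm_of 9 q h3)
      rw [en, e] at h5'
      exact hcm n hn36 q' hq' h5'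
  -- the permutation of the 36
  choose! f hf1 hf2 using hact
  have hf36 : ∀ q < 36, f q < 36 := fun q hq =>
    hstep q hq (f q) (hf1 q (by omega)) (hf2 q (by omega))
  let f' : Fin 36 → Fin 36 := fun q => ⟨f q.1, hf36 q.1 q.2⟩
  have hf'inj : Function.Injective f' := by
    intro u v e
    have e1 : f u.1 = f v.1 := congrArg Fin.val e
    have e2 : y * eS u.1 * y⁻¹ = y * eS v.1 * y⁻¹ := by
      rw [hf2 _ (by have := u.2; omega), hf2 _ (by have := v.2; omega), e1]
    have e3 : eS u.1 = eS v.1 := by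
      exact mul_left_cancel (mul_right_cancel e2)
    exact Fin.ext (hinj _ (by have := u.2; omega) _ (by have := v.2; omega) e3)
  let σ : Equiv.Perm (Fin 36) := Equiv.ofBijective f' (Finite.injective_iff_bijective.1 hf'inj)
  have hσv : ∀ q : Fin 36, y * eS q.1 * y⁻¹ = eS (σ q).1 := by
    intro q
    exact hf2 q.1 (by have := q.2; omega)
  have hσpow : ∀ (n : ℕ) (q : Fin 36), y ^ n * eS q.1 * (y ^ n)⁻¹ = eS ((σ ^ n) q).1 := by
    intro n q
    induction n with
    | zero => simp
    | succ n ih =>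
      have e3 : (σ ^ (n + 1)) q = σ ((σ ^ n) q) := by rw [pow_succ', Equiv.Perm.mul_apply]
      rw [e3, ← hσv, ← ih, pow_succ']
      group
  have hσr : σ ^ r = 1 := by
    ext q
    have h3 := hσpow r q
    rw [hyr] at h3
    simp only [one_mul, inv_one, mul_one] at h3
    have h4 := hinj _ (by have := q.2; omega) _ (by have := ((σ ^ r) q).2; omega) h3
    simpa using h4.symm
  have hσL : ∀ p q m : Fin 36, m.1 = LL p.1 q.1 → (σ m).1 = LL (σ p).1 (σ q).1 := by
    intro p q m hm
    have h3 := hL p.1 p.2 q.1 q.2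
    rw [← hm] at h3
    have h4 := hL (σ p).1 (σ p).2 (σ q).1 (σ q).2
    have h5' : eS (σ m).1 = eS (LL (σ p).1 (σ q).1) := by
      rw [← hσv, ← h3, ← h4, ← hσv, ← hσv]
      group
    exact hinj _ (by have := (σ m).2; omega) _ (by have := LL_lt_aux (σ p) (σ q); omega) h5'
  have hσ1 : σ = 1 := perm36 σ hr h5 hσr hσL
  -- y commutes with the members below 36
  have hyc : ∀ q < 36, Commute y (eS q) := by
    intro q hq
    have h3 := hσv ⟨q, hq⟩
    rw [hσ1] at h3
    simp only [Equiv.Perm.coe_one, id_eq] at h3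
    show y * eS q = eS q * y
    calc y * eS q = (y * eS q * y⁻¹) * y := by group
      _ = eS q * y := by rw [h3]
  have hyk : ∀ k, Commute y (a k) := by
    have hcl : ∀ w ∈ closure (eS '' {q | q < 36}), Commute y w := by
      intro w hw
      induction hw using closure_induction with
      | mem w hw =>
        obtain ⟨q, hq, rfl⟩ := hw
        exact hyc q hq
      | one => exact Commute.one_right y
      | mul u v _ _ hu hv => exact hu.mul_right hv
      | inv u _ hu => exact hu.inv_right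
    intro k
    exact hcl _ (ha k)
  have hyQ : y ∈ QQ a := h.hC y hyk
  -- y is trivial
  have hy1 : y = 1 := by
    have hp3 := h.rel.pg_card.1
    obtain ⟨m, hm⟩ := hp3 ⟨y, hyQ⟩
    have hm' : y ^ 3 ^ m = 1 := congrArg Subtype.val hm
    have hcop : Nat.Coprime (3 ^ m) r := by
      apply Nat.Coprime.pow_left
      rw [Nat.coprime_primes Nat.prime_three hr]
      omega
    have ho := Nat.dvd_gcd (orderOf_dvd_of_pow_eq_one hm') (orderOf_dvd_of_pow_eq_one hyr)
    rw [hcop.gcd_eq_one, Nat.dvd_one, orderOf_eq_one_iff] at ho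
    exact ho
  have : x = c⁻¹ * y * c := by rw [hy]; group
  rw [this, hy1]
  simp

/-- **The normalizer is solvable.** -/
theorem solvable_norm (h : Raw5 D z a) (eS : ℕ → G) (h1 : ∀ r < 324, eS r ∈ S0 D z)
    (h2 : ∀ d ∈ S0 D z, ∃ r < 324, d = eS r) (hinj : ∀ r < 324, ∀ s < 324, eS r = eS s → r = s)
    (htr : ∀ r < 324, ∃ c ∈ closure (S0 D z), c * eS r * c⁻¹ = eS 0)
    (hcm : ∀ q < 36, ∀ r < 324, Commute (eS q) (eS r) → r < 36)
    (hL : ∀ p < 36, ∀ q < 36, eS p * eS q * (eS p)⁻¹ = eS (LL p q))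
    (ha : ∀ k : Fin 8, a k ∈ closure (eS '' {q | q < 36})) :
    Group.IsSolvable ↥(normalizer ((zpowers z : Subgroup G) : Set G)) := by
  set N := normalizer ((zpowers z : Subgroup G) : Set G) with hN
  have hpr : ∀ r : ℕ, r.Prime → r ∣ Nat.card N → r = 2 ∨ r = 3 := by
    intro r hr hd
    by_contra hc
    push Not at hc
    have h5 : 5 ≤ r := by
      have := hr.two_le
      by_contra h4
      have : r = 2 ∨ r = 3 ∨ r = 4 := by omega
      rcases this with e | e | e
      · exact hc.1 e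
      · exact hc.2 e
      · subst e
        exact absurd hr (by norm_num)
    have : Fact r.Prime := ⟨hr⟩
    obtain ⟨x, hx⟩ := exists_prime_orderOf_dvd_card' r hd
    have hx1 : (x : G) ^ r = 1 := by
      have := pow_orderOf_eq_one x
      rw [hx] at this
      exact congrArg Subtype.val this
    have h0 := no_prime h eS h1 h2 hinj htr hcm hL ha x.2 hr h5 hx1
    have h00 : x = 1 := Subtype.ext h0
    rw [h00, orderOf_one] at hx
    exact hr.one_lt.ne hx
  have hcard : Nat.card N = 2 ^ (Nat.card N).factorization 2 * 3 ^ (Nat.card N).factorization 3 := by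
    have hne : Nat.card N ≠ 0 := Nat.card_pos.ne'
    conv_lhs => rw [← Nat.prod_factorization_pow_eq_self hne]
    have hsub : (Nat.card N).factorization.support ⊆ {2, 3} := by
      intro q hq
      have hq' := Nat.support_factorization (Nat.card N) ▸ hq
      rw [Nat.mem_primeFactors] at hq'
      have := hpr q hq'.1 hq'.2.1
      simpa using this
    rw [Finsupp.prod_of_support_subset _ hsub _ (by simp)]
    rw [Finset.prod_pair (by norm_num)]
  exact Cfsg.Agent.Lib.Char.Burnside.isSolvable_of_card_eq 2 3 _ _ Nat.prime_two Nat.prime_three hcard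

end

end Cfsg.Agent.Lib.FiMax
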