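import Cfsg.Agent.Lib.FiMax.Chk
import Cfsg.Agent.Lib.FiMax.Abs
import Cfsg.Agent.Lib.FiMax.Prime

/-!
# The normalizer of the element of order three is a maximal subgroup of derived length ten
-/

set_option autoImplicit false
set_option maxRecDepth 100000
set_option linter.unusedSectionVars false
set_option linter.unusedVariables false
set_option linter.style.longLine false
set_option linter.unusedSimpArgs false
set_option linter.style.haveILetI false

namespace Cfsg.Agent.Lib.FiMax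

open Cfsg Subgroup Cfsg.Agent.Lib.PermComp Cfsg.Agent.Lib.PermComp.OutP
open Cfsg.Agent.Lib.PermComp.Core (force force_eq ifB ifB_eq_true)
open Cfsg.Agent.Lib.PermComp.Kron (rangeAll rangeAll_spec)
open Cfsg.Agent.Lib.PermComp.OutP.Fi23 (n F Bs DD cs ds hD)
open Cfsg.Agent.Lib.PermComp.OutP.Fi23I (p0 hn p0N)
open Cfsg.Agent.Lib.TC.Core (prodA prodA_cons prodA_nil prodA_append)
open Cfsg.Agent.Lib.PermComp.OutP.M23T.O8 (V orB notB anyL pvv orB_eq_true notB_eq_true anyL_eq_true blt_true rV rTa eq_H tEl_sq tEl_conj tEl_mem tEl_conj_pt DH hst conj_of_pt comm_of_fix exists_idx tt_sq tt)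
open Cfsg.Agent.Lib.PermComp.OutP.M23T Cfsg.Agent.Lib.PermComp.OutP.M23T.Z5
open scoped commutatorElement

/-! ### Abstract facts on the derived series -/

section abs

variable {G : Type*} [Group G] (N : Subgroup G)

/-- Being in a term of the derived series of a subgroup. -/
def Pk (k : ℕ) (x : G) : Prop := ∃ hx : x ∈ N, (⟨x, hx⟩ : N) ∈ derivedSeries N k

variable {N}

theorem Pk_zero {x : G} (hx : x ∈ N) : Pk N 0 x := ⟨hx, by simp [derivedSeries_zero]⟩

theorem Pk_comm {k : ℕ} {x y : G} (hx : Pk N k x) (hy : Pk N k y) : Pk N (k + 1) ⁅x, y⁆ := by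
  obtain ⟨h1, h2⟩ := hx
  obtain ⟨h3, h4⟩ := hy
  have h5 : ⁅x, y⁆ ∈ N := by
    rw [commutatorElement_def]
    exact mul_mem (mul_mem (mul_mem h1 h3) (inv_mem h1)) (inv_mem h3)
  refine ⟨h5, ?_⟩
  rw [derivedSeries_succ]
  have h6 := commutator_mem_commutator h2 h4
  have e : (⟨⁅x, y⁆, h5⟩ : N) = ⁅(⟨x, h1⟩ : N), (⟨y, h3⟩ : N)⁆ := Subtype.ext rfl
  rw [e]
  exact h6

theorem Pk_pow {k : ℕ} {x : G} (hx : Pk N k x) (m : ℕ) : Pk N k (x ^ m) := by
  obtain ⟨h1, h2⟩ := hx
  have h3 : x ^ m ∈ N := pow_mem h1 m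
  refine ⟨h3, ?_⟩
  have e : (⟨x ^ m, h3⟩ : N) = (⟨x, h1⟩ : N) ^ m := Subtype.ext rfl
  rw [e]
  exact pow_mem h2 m

theorem Pk_conj {k : ℕ} {x g : G} (hx : Pk N k x) (hg : g ∈ N) : Pk N k (g * x * g⁻¹) := by
  obtain ⟨h1, h2⟩ := hx
  have h3 : g * x * g⁻¹ ∈ N := mul_mem (mul_mem hg h1) (inv_mem hg)
  refine ⟨h3, ?_⟩
  have e : (⟨g * x * g⁻¹, h3⟩ : N) = (⟨g, hg⟩ : N) * (⟨x, h1⟩ : N) * (⟨g, hg⟩ : N)⁻¹ := Subtype.ext rfl
  rw [e]
  exact (derivedSeries_normal N k).conj_mem _ h2 _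

theorem Pk_ne {k : ℕ} {x : G} (hx : Pk N k x) (h1 : x ≠ 1) : derivedSeries N k ≠ ⊥ := by
  obtain ⟨h2, h3⟩ := hx
  intro e
  rw [e, Subgroup.mem_bot] at h3
  exact h1 (congrArg Subtype.val h3)

theorem ne_of_solv {M : Type*} [Group M] (hs : Group.IsSolvable M) {k : ℕ} (h : derivedSeries M k ≠ ⊥) :
    derivedSeries M (k + 1) ≠ derivedSeries M k := by
  intro e
  obtain ⟨m, hm⟩ := hs.solvable
  have h2 : ∀ j, derivedSeries M (k + j) = derivedSeries M k := by
    intro j
    induction j with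
    | zero => rfl
    | succ j ih =>
      rw [← add_assoc, derivedSeries_succ, ih, ← derivedSeries_succ, e]
  have h3 : derivedSeries M (k + m) = ⊥ := by
    have hle : derivedSeries M (k + m) ≤ derivedSeries M m := derivedSeries_antitone M (by omega)
    rw [hm] at hle
    exact le_bot_iff.1 hle
  rw [h2 m] at h3
  exact h h3

theorem mem_norm_of_inv {z g : G} (h : g * z = z⁻¹ * g) : g ∈ normalizer ((zpowers z : Subgroup G) : Set G) := by
  have h1 : g * z * g⁻¹ = z⁻¹ := by rw [h]; group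
  have h2 : g⁻¹ * z * g = z⁻¹ := by
    have : z = g⁻¹ * z⁻¹ * g := by rw [← h1]; group
    calc g⁻¹ * z * g = (g⁻¹ * z⁻¹ * g)⁻¹ := by group
      _ = z⁻¹ := by rw [← this]
  have hc : ∀ m : ℤ, g * z ^ m * g⁻¹ = (z⁻¹) ^ m := by
    intro m
    rw [← h1, conj_zpow]
  have hc' : ∀ m : ℤ, g⁻¹ * z ^ m * g = (z⁻¹) ^ m := by
    intro m
    have := conj_zpow (a := g⁻¹) (b := z) (i := m)
    rw [inv_inv] at this
    rw [← this, h2]
  rw [mem_normalizer_iff]
  intro w
  constructor
  · intro hw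
    obtain ⟨m, rfl⟩ := mem_zpowers_iff.1 hw
    show g * z ^ m * g⁻¹ ∈ zpowers z
    rw [hc]
    exact zpow_mem (inv_mem (mem_zpowers z)) m
  · intro hw
    obtain ⟨m, hm⟩ := mem_zpowers_iff.1 hw
    have e : w = g⁻¹ * z ^ m * g := by
      rw [hm]; group
    rw [e, hc']
    exact zpow_mem (inv_mem (mem_zpowers z)) m

end abs

section

variable {H : Subgroup (Equiv.Perm (Fin n))} {E : Nat → Equiv.Perm (Fin n)}
variable (hE : ∀ g < 65, E g ∈ H ∧ Rp (F g) (E g))

/-- A word in the members of the class. -/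
noncomputable def tw (l : List Nat) : H := prodA (O8.tEl hE) l

theorem rVW (l : List Nat) : Rp (vW l) (tw hE l).1 := by
  induction l with
  | nil =>
    intro p hp
    rfl
  | cons c l ih =>
    have h : Rp (fun p => vW l (V c p)) ((tw hE l).1 * (O8.tEl hE c).1) := ih.mul (rV hE c)
    refine h.congr fun p _ => ?_
    show force c (fun i => force (V i p) (vW l)) = _
    rw [force_eq, force_eq]

theorem tw_cons (c : Nat) (l : List Nat) : tw hE (c :: l) = tw hE l * O8.tEl hE c := rfl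

theorem tw_nil : tw hE [] = 1 := rfl

theorem tw_app (l m : List Nat) : tw hE (l ++ m) = tw hE m * tw hE l := prodA_append _ l m

theorem tw_one (c : Nat) : tw hE [c] = O8.tEl hE c := by
  rw [tw_cons, tw_nil, one_mul]

theorem tEl_inv (c : Nat) : (O8.tEl hE c)⁻¹ = O8.tEl hE c := inv_eq_of_mul_eq_one_left (tEl_sq hE c)

theorem tw_rev (l : List Nat) : tw hE l.reverse = (tw hE l)⁻¹ := by
  induction l with
  | nil => simp [tw_nil]
  | cons c l ih =>
    rw [List.reverse_cons, tw_app, ih, tw_one, tw_cons, mul_inv_rev, tEl_inv]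

theorem tw_cw (a b : List Nat) : tw hE (cw a b) = ⁅tw hE a, tw hE b⁆ := by
  rw [cw, tw_app, tw_app, tw_app, tw_rev, tw_rev, commutatorElement_def]

theorem tw_map (l : List Nat) : tw hE (l.map sI) = wE hE l := by
  induction l with
  | nil => rfl
  | cons c l ih =>
    rw [List.map_cons, tw_cons, ih, wE_cons]
    rfl

variable (hbase : ∀ x ∈ H, ∀ y ∈ H, (∀ b ∈ Bs, ∀ (hb : b < n), x ⟨b, hb⟩ = y ⟨b, hb⟩) → x = y)

include hbase in
theorem tw_eq {l m : List Nat} (h : agr l m = true) : tw hE l = tw hE m :=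
  eq_H hbase (rVW hE l) (rVW hE m) h

/-- Membership of the nests. -/
theorem Pk_nest {N : Subgroup H} {L : Nat → List Nat} {d : ℕ} (hL : ∀ i, Pk N d (tw hE (L i))) :
    ∀ k i, Pk N (d + k) (tw hE (nest k L i)) := by
  intro k
  induction k with
  | zero => exact hL
  | succ k ih =>
    intro i
    rw [show nest (k + 1) L i = cw (nest k L (2 * i)) (nest k L (2 * i + 1)) from rfl, tw_cw]
    exact Pk_comm (ih _) (ih _)

variable (hcard : Nat.card H = 4089470473293004800) (hlev : LevsOK n hn F E H [] ds)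

/-- The subgroup. -/
noncomputable abbrev NN : Subgroup H := normalizer ((zpowers (zE hE) : Subgroup H) : Set H)

include hbase in
theorem zE_eq : tw hE zI = zE hE := tw_map hE zW

include hbase in
theorem leaf_mem {l : List Nat} (h : leafOK l = true) : tw hE l ∈ NN hE := by
  simp only [leafOK, orB_eq_true] at h
  rcases h with h | h
  · have e := tw_eq hE hbase h
    rw [tw_app, tw_app, zE_eq hE hbase] at e
    exact mem_norm_of_comm e
  · have e := tw_eq hE hbase h
    rw [tw_app, tw_app, tw_rev, zE_eq hE hbase] at e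
    exact mem_norm_of_inv e

include hcard hlev in
theorem eS_mem {r : Nat} (hr : r < 324) : eS hE r ∈ NN hE :=
  mem_norm_of_comm (eS_S0 hE hcard hlev hr).2

include hcard hlev in
theorem closure_le_N : closure (S0 (DH hE) (zE hE)) ≤ NN hE := by
  rw [closure_le]
  intro d hd
  exact mem_norm_of_comm hd.2

include hcard hlev hbase in
theorem top_P3 : Pk (NN hE) 3 (eS hE 0) := by
  have hL : ∀ i, Pk (NN hE) 0 (tw hE (Lt i)) := by
    intro i
    refine Pk_zero ?_
    by_cases hi : i < Ltop.length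
    · have hm : Ltop.getD i [] ∈ Ltop := by
        rw [List.getD_eq_getElem _ _ hi]
        exact List.getElem_mem hi
      exact leaf_mem hE hbase (List.all_eq_true.1 c_leaf _ hm)
    · have : Lt i = [] := by
        unfold Lt
        rw [List.getD_eq_default _ _ (by omega)]
      rw [this]
      exact one_mem _
  have h1 := Pk_nest hE hL 3 0
  have e := tw_eq hE hbase c_top
  rw [tw_app, tw_app, tw_one] at e
  have h2 : Pk (NN hE) 3 (tw hE W3 ^ 3) := Pk_pow (k := 3) (by simpa [W3] using h1) 3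
  have e2 : tw hE W3 ^ 3 = eS hE 0 := by
    show _ = O8.tEl hE (sI 0)
    rw [← e]
    simp only [pow_succ, pow_zero, one_mul]
  rw [e2] at h2
  exact h2

include hbase hcard hlev in
theorem htr_aux (hR : RelQ (zE hE) (aE hE)) : ∀ m r, rk r = m → r < 324 →
    ∃ c ∈ closure (S0 (DH hE) (zE hE)), c * eS hE r * c⁻¹ = eS hE 0 := by
  have hS : ∀ r, r < 324 → eS hE r ∈ S0 (DH hE) (zE hE) := fun r hr => eS_S0 hE hcard hlev hr
  have hSg : ∀ r ∈ SgR, eS hE (sgw r) * eS hE r * eS hE (sgw r) = eS hE 0 := by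
    intro r hr
    have e := wE_eq hE hbase (c_sg r hr)
    rw [wE_one] at e
    have e2 : wE hE [sgw r, r, sgw r] = eS hE (sgw r) * eS hE r * eS hE (sgw r) := by
      simp [wE, prodA_cons]
    rw [e2] at e
    exact e
  intro m
  induction m using Nat.strong_induction_on with
  | _ m ih =>
    intro r hm hr
    have h := rangeAll_spec c_tr r (Nat.zero_le _) (by omega)
    simp only [pTr, orB_eq_true, force_eq, ifB_eq_true, Cfsg.Agent.Lib.PermComp.Core.memN_eq_true] at h
    rcases h with h | ⟨h1, h2, h3, h4⟩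
    · refine ⟨eS hE (sgw r), subset_closure (hS _ (c_sl r h)), ?_⟩
      rw [eS_inv]
      exact hSg r h
    · have hlt : rk (trP r) < rk r := blt_lt h2
      have e := wE_eq hE hbase h4
      rw [wE_one] at e
      have e2 : wE hE [trG r, trP r, trG r] = eS hE (trG r) * eS hE (trP r) * eS hE (trG r) := by
        simp [wE, prodA_cons]
      rw [e2] at e
      obtain ⟨c, hc, hc2⟩ := ih _ (by omega) (trP r) rfl (blt_lt h3)
      have hg : trG r < 324 := by
        revert h1
        exact (fun h => (by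
          have : ∀ x ∈ SgR, x < 324 := by decide
          exact this _ h))
      refine ⟨c * eS hE (trG r), mul_mem hc (subset_closure (hS _ hg)), ?_⟩
      rw [e, ← hc2]
      simp only [mul_inv_rev, eS_inv]
      have h5 := eS_sq hE (trG r)
      calc c * eS hE (trG r) * (eS hE (trG r) * eS hE (trP r) * eS hE (trG r)) * (eS hE (trG r) * c⁻¹)
          = c * (eS hE (trG r) * eS hE (trG r)) * eS hE (trP r) * (eS hE (trG r) * eS hE (trG r)) * c⁻¹ := by group
        _ = c * eS hE (trP r) * c⁻¹ := by rw [h5]; group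

include hbase hcard hlev in
theorem letters_P3 {r : Nat} (hr : r < 324) : Pk (NN hE) 3 (eS hE r) := by
  have hR := hrel hE hbase
  obtain ⟨c, hc, e⟩ := htr_aux hE hbase hcard hlev hR _ r rfl hr
  have h := Pk_conj (top_P3 hE hbase hcard hlev) (inv_mem (closure_le_N hE hcard hlev hc))
  rw [← e] at h
  have e2 : c⁻¹ * (c * eS hE r * c⁻¹) * c⁻¹⁻¹ = eS hE r := by group
  rw [e2] at h
  exact h

include hbase hcard hlev in
theorem derived_ne : derivedSeries (NN hE) 9 ≠ ⊥ := by
  have hL : ∀ i, Pk (NN hE) 3 (tw hE (Lb i)) := by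
    intro i
    unfold Lb
    rw [tw_one]
    exact letters_P3 hE hbase hcard hlev (Nat.mod_lt _ (by norm_num))
  have h1 := Pk_nest hE hL 6 0
  refine Pk_ne h1 ?_
  intro e
  have h2 := (rVW hE (nest 6 Lb 0)) 1 (by decide)
  rw [e] at h2
  have h3 : vW (nest 6 Lb 0) 1 = 1 := h2
  have h4 := c_bot
  rw [h3] at h4
  simp at h4

/-! ### Solvability -/

include hbase hcard hlev in
theorem pt_of_eq {i j : Nat} (h : O8.tEl hE i = O8.tEl hE j) : pvv i = pvv j := by
  obtain ⟨x, e1, h1, e2⟩ := tEl_conj_pt hE i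
  obtain ⟨y, e3, h3, e4⟩ := tEl_conj_pt hE j
  have h5 : (y⁻¹ * x) * tt hE * (y⁻¹ * x)⁻¹ = tt hE := by
    have : x * tt hE * x⁻¹ = y * tt hE * y⁻¹ := by rw [← e1, ← e3, h]
    calc (y⁻¹ * x) * tt hE * (y⁻¹ * x)⁻¹ = y⁻¹ * (x * tt hE * x⁻¹) * y := by group
      _ = y⁻¹ * (y * tt hE * y⁻¹) * y := by rw [this]
      _ = tt hE := by group
  have h6 := (hst hE hcard hlev _).1 h5
  have h7 : x.1 p0 = y.1 p0 := by
    have h8 : (y.1)⁻¹ (x.1 p0) = p0 := h6
    rw [Equiv.Perm.inv_eq_iff_eq] at h8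
    exact h8
  rw [e2, e4] at h7
  exact congrArg Fin.val h7

include hbase hcard hlev in
theorem solv_N : Group.IsSolvable (NN hE) := by
  have hr5 := raw5_H hE hcard hlev hbase
  refine solvable_norm hr5 (eS hE) (fun r hr => eS_S0 hE hcard hlev hr) ?_ ?_ ?_ ?_ ?_ ?_
  · intro d hd
    obtain ⟨r, hr, e⟩ := S0_eq hE hcard hlev hd
    exact ⟨r, hr, e⟩
  · intro r hr s hs e
    have h1 := pt_of_eq hE hbase hcard hlev e
    rw [← (sp_spec hr).2, ← (sp_spec hs).2] at h1
    have h2 := rangeAll_spec (rangeAll_spec c_inj r (Nat.zero_le _) (by omega)) s (Nat.zero_le _) (by omega)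
    simp only [orB_eq_true, notB_eq_true] at h2
    rcases h2 with h2 | h2
    · exact Nat.eq_of_beq_eq_true h2
    · rw [h1, Nat.beq_refl] at h2
      simp at h2
  · intro r hr
    exact htr_aux hE hbase hcard hlev (hrel hE hbase) _ r rfl hr
  · intro q hq r hr hc
    by_contra hn
    have h2 := rangeAll_spec (rangeAll_spec c_cm q (Nat.zero_le _) (by omega)) r (Nat.zero_le _) (by omega)
    simp only [orB_eq_true, notB_eq_true] at h2
    have h3 := fix_eS hE hcard hlev hr hc.eq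
    have h4 : vS q (sP r) = sP r := by
      rw [(rES hE q) _ (sp_spec hr).1]
      exact congrArg Fin.val h3
    rcases h2 with h2 | h2
    · exact hn (blt_lt h2)
    · rw [h4, Nat.beq_refl] at h2
      simp at h2
  · intro p hp q hq
    have h2 := rangeAll_spec (rangeAll_spec c_LL p (Nat.zero_le _) (by omega)) q (Nat.zero_le _) (by omega)
    have h3 : vS p (sP q) = sP (LL p q) := Nat.eq_of_beq_eq_true h2
    have hq' : q < 324 := by omega
    have hl : LL p q < 324 := by
      have := LL_lt ⟨p, hp⟩ ⟨q, hq⟩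
      simp only at this
      omega
    have hqn : pvv (sI q) < n := by rw [← (sp_spec hq').2]; exact (sp_spec hq').1
    have hln : pvv (sI (LL p q)) < n := by rw [← (sp_spec hl).2]; exact (sp_spec hl).1
    refine conj_pt hE hcard hlev hqn hln ?_
    apply Fin.ext
    have h4 := (rES hE p) _ hqn
    calc ((eS hE p).1 ⟨pvv (sI q), hqn⟩).1 = vS p (pvv (sI q)) := h4.symm
      _ = vS p (sP q) := by rw [(sp_spec hq').2]
      _ = sP (LL p q) := h3
      _ = pvv (sI (LL p q)) := (sp_spec hl).2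
  · intro k
    show wE hE (qlW k.1) ∈ _
    have : ∀ l : List Nat, (∀ c ∈ l, c < 36) → wE hE l ∈ closure (eS hE '' {q | q < 36}) := by
      intro l
      induction l with
      | nil => intro _; exact one_mem _
      | cons c l ih =>
        intro h
        rw [wE_cons]
        exact mul_mem (ih fun x hx => h x (List.mem_cons_of_mem _ hx)) (subset_closure ⟨c, h c List.mem_cons_self, rfl⟩)
    exact this _ (c_ql k)

/-! ### The maximality -/

/-- The points whose member of the class lies in the subgroup. -/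
def Wt (K : Subgroup H) (q : Nat) : Prop := ∃ i, pvv i = q ∧ O8.tEl hE i ∈ K

include hbase hcard hlev in
theorem conj_idx (g : H) (i : Nat) : ∃ j, g * O8.tEl hE i * g⁻¹ = O8.tEl hE j ∧
    ∃ hi : pvv i < n, pvv j = (g.1 ⟨pvv i, hi⟩ : Fin n).1 := by
  have hr5 := raw5_H hE hcard hlev hbase
  obtain ⟨x, e1, hp, e2⟩ := tEl_conj_pt hE i
  have hm : g * O8.tEl hE i * g⁻¹ ∈ DH hE := hr5.dc g _ (tEl_mem hE i)
  obtain ⟨j, hj, e3⟩ := exists_idx hE hcard hm
  obtain ⟨y, e4, hq, e5⟩ := tEl_conj_pt hE j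
  refine ⟨j, e3, hp, ?_⟩
  have h5 : (y⁻¹ * (g * x)) * tt hE * (y⁻¹ * (g * x))⁻¹ = tt hE := by
    have : (g * x) * tt hE * (g * x)⁻¹ = y * tt hE * y⁻¹ := by
      rw [← e4, ← e3, e1]
      group
    calc (y⁻¹ * (g * x)) * tt hE * (y⁻¹ * (g * x))⁻¹ = y⁻¹ * ((g * x) * tt hE * (g * x)⁻¹) * y := by group
      _ = y⁻¹ * (y * tt hE * y⁻¹) * y := by rw [this]
      _ = tt hE := by group
  have h6 := (hst hE hcard hlev _).1 h5
  have h7 : g.1 (x.1 p0) = y.1 p0 := by
    have h8 : (y.1)⁻¹ (g.1 (x.1 p0)) = p0 := h6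
    rw [Equiv.Perm.inv_eq_iff_eq] at h8
    exact h8
  rw [e2, e5] at h7
  exact (congrArg Fin.val h7).symm

include hbase hcard hlev in
theorem Wt_act {K : Subgroup H} {g : H} (hg : g ∈ K) {f : Nat → Nat} (rf : Rp f g.1) {p : Nat}
    (hw : Wt hE K p) : Wt hE K (f p) := by
  obtain ⟨i, rfl, hi⟩ := hw
  obtain ⟨j, e1, hp, e2⟩ := conj_idx hE hbase hcard hlev g i
  refine ⟨j, ?_, ?_⟩
  · rw [e2]
    exact (rf _ hp).symm
  · rw [← e1]
    exact mul_mem (mul_mem hg hi) (inv_mem hg)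

include hE in
theorem vS_vS (g : Nat) {q : Nat} (hq : q < n) : vS g (vS g q) = q := by
  have h1 := congrArg (fun x : H => (x.1 ⟨q, hq⟩ : Fin n)) (eS_sq hE g)
  have h2 : (eS hE g).1 ((eS hE g).1 ⟨q, hq⟩) = ⟨q, hq⟩ := h1
  have h3 := (rES hE g) q hq
  have h4 := (rES hE g) (vS g q) (by rw [h3]; exact Fin.isLt _)
  rw [h4]
  have h5 : (⟨vS g q, by rw [h3]; exact Fin.isLt _⟩ : Fin n) = (eS hE g).1 ⟨q, hq⟩ := Fin.ext h3
  rw [h5, h2]

include hbase hcard hlev in
theorem wt_root {K : Subgroup H} (hS : ∀ r, r < 324 → eS hE r ∈ K) :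
    ∀ m q, fK q = m → q < 31671 → (Wt hE K q ↔ Wt hE K (rt (fL q))) := by
  intro m
  induction m using Nat.strong_induction_on with
  | _ m ih =>
    intro q hm hq
    have h := c_for q hq
    simp only [pF, ifB_eq_true, orB_eq_true] at h
    obtain ⟨_, _, h⟩ := h
    rcases h with ⟨h1, h2⟩ | ⟨h1, h2, h3, h4⟩
    · rw [← Nat.eq_of_beq_eq_true h2]
    · have hg := blt_lt h1
      have e := Nat.eq_of_beq_eq_true h2
      have hk := blt_lt h3
      have hl := Nat.eq_of_beq_eq_true h4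
      have hpn : fP q < 31671 := by
        rw [← e, (rES hE _) q hq]
        exact Fin.isLt _
      have ih' := ih _ (by omega) (fP q) rfl hpn
      rw [hl] at ih'
      rw [← ih']
      constructor
      · intro hw
        have := Wt_act hE hbase hcard hlev (hS _ hg) (rES hE _) hw
        rwa [e] at this
      · intro hw
        have := Wt_act hE hbase hcard hlev (hS _ hg) (rES hE _) hw
        have e2 : vS (fG q) (fP q) = q := by
          rw [← e]
          exact vS_vS hE _ hq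
        rwa [e2] at this

include hbase hcard hlev in
theorem wit_step {K : Subgroup H} (hS : ∀ r, r < 324 → eS hE r ∈ K) {y w a b c : Nat}
    (h : fL (pvv y) = a ∧ fL w = b ∧ w < 31671 ∧ fL (V y w) = c)
    (hy : Wt hE K (rt a)) (hw : Wt hE K (rt b)) : Wt hE K (rt c) := by
  obtain ⟨h1, h2, h3, h4⟩ := h
  obtain ⟨x, -, hyn, -⟩ := tEl_conj_pt hE y
  subst h1 h2 h4
  have W := wt_root hE hbase hcard hlev hS
  obtain ⟨i, ei, hi⟩ := (W _ (pvv y) rfl hyn).2 hy
  obtain ⟨x', -, hin, -⟩ := tEl_conj_pt hE i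
  have e := tEl_eq_of_pt hE hcard hlev hin ei
  rw [e] at hi
  have h5 := (W _ w rfl h3).2 hw
  have hvn : V y w < 31671 := by
    rw [(rV hE y) w h3]
    exact Fin.isLt _
  exact (W _ (V y w) rfl hvn).1 (Wt_act hE hbase hcard hlev hi (rV hE y) h5)

include hbase hcard hlev in
theorem move_step {K : Subgroup H} (hK : NN hE ≤ K) (hS : ∀ r, r < 324 → eS hE r ∈ K) {y w a b : Nat}
    (hc : agr (zI ++ [y, w]) ([y, w] ++ zI) = true) (hb : fL (vW [y, w] (rt a)) = b) (ha : a < 6)
    (h : Wt hE K (rt a)) : Wt hE K (rt b) := by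
  have e := tw_eq hE hbase hc
  rw [tw_app, tw_app, zE_eq hE hbase] at e
  have hm : tw hE [y, w] ∈ K := hK (mem_norm_of_comm e)
  have W := wt_root hE hbase hcard hlev hS
  have h1 := Wt_act hE hbase hcard hlev hm (rVW hE [y, w]) h
  have hvn : vW [y, w] (rt a) < 31671 := by
    rw [(rVW hE [y, w]) _ (c_rtlt a ha)]
    exact Fin.isLt _
  have h2 := (W _ _ rfl hvn).1 h1
  rwa [hb] at h2

include hbase hcard hlev in
theorem K_top (hs : IsSimpleGroup H) {K : Subgroup H} (hK : NN hE ≤ K) {d : H} (hd : d ∈ DH hE)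
    (hd2 : d ∉ S0 (DH hE) (zE hE)) (hdK : d ∈ K) : K = ⊤ := by
  have hr5 := raw5_H hE hcard hlev hbase
  have hS : ∀ r, r < 324 → eS hE r ∈ K := fun r hr => hK (eS_mem hE hcard hlev hr)
  have W := wt_root hE hbase hcard hlev hS
  have wit : ∀ {y w a b c : Nat}, (fL (pvv y) = a ∧ fL w = b ∧ w < 31671 ∧ fL (V y w) = c) →
      Wt hE K (rt a) → Wt hE K (rt b) → Wt hE K (rt c) := fun h => wit_step hE hbase hcard hlev hS h
  have mv : ∀ {y w a b : Nat}, agr (zI ++ [y, w]) ([y, w] ++ zI) = true → fL (vW [y, w] (rt a)) = b → a < 6 →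
      Wt hE K (rt a) → Wt hE K (rt b) := fun h1 h2 h3 => move_step hE hbase hcard hlev hK hS h1 h2 h3
  have W0 : Wt hE K (rt 0) := ⟨sI 0, (sp_spec (by norm_num)).2.symm, hS 0 (by norm_num)⟩
  have A1 : Wt hE K (rt 1) → ∀ l, l < 6 → Wt hE K (rt l) := by
    intro h1 l hl
    have hc : l = 0 ∨ l = 1 ∨ l = 2 ∨ l = 3 ∨ l = 4 ∨ l = 5 := by omega
    rcases hc with rfl | rfl | rfl | rfl | rfl | rfl
    · exact W0
    · exact h1
    · exact wit w_1_1_2 h1 h1
    · exact wit w_1_1_3 h1 h1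
    · exact wit w_1_1_4 h1 h1
    · exact wit w_1_1_5 h1 h1
  obtain ⟨i, hi, rfl⟩ := exists_idx hE hcard hd
  obtain ⟨x, e1, hp, e2⟩ := tEl_conj_pt hE i
  have hroot := (W _ (pvv i) rfl hp).1 ⟨i, rfl, hdK⟩
  have hf := c_for (pvv i) hp
  simp only [pF, ifB_eq_true, orB_eq_true, notB_eq_true] at hf
  obtain ⟨hl6, hl0, -⟩ := hf
  have hl6' : fL (pvv i) < 6 := blt_lt hl6
  have hne0 : fL (pvv i) ≠ 0 := by
    intro h0
    rw [h0] at hl0
    rcases hl0 with h | h
    · simp at h
    · have h1 := Nat.eq_of_beq_eq_true h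
      rw [(rW hE zW) _ hp] at h1
      have h2 : (zE hE).1 ⟨pvv i, hp⟩ = ⟨pvv i, hp⟩ := Fin.ext h1
      have h3 := comm_of_fix hE hcard hlev hp h2
      exact hd2 ⟨hd, Commute.symm h3⟩
  have hall : ∀ l, l < 6 → Wt hE K (rt l) := by
    apply A1
    generalize fL (pvv i) = l at hroot hl6' hne0
    have hc : l = 1 ∨ l = 2 ∨ l = 3 ∨ l = 4 ∨ l = 5 := by omega
    rcases hc with rfl | rfl | rfl | rfl | rfl
    · exact hroot
    · exact wit w_2_4_1 hroot (mv mc_6712 m_2 (by norm_num) hroot)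
    · exact wit w_3_5_1 hroot (mv mc_4224 m_3 (by norm_num) hroot)
    · exact wit w_4_3_1 hroot (mv mc_4224 m_4 (by norm_num) hroot)
    · exact wit w_5_4_1 hroot (mv mc_4224 m_5 (by norm_num) hroot)
  have hEl : ∀ j, O8.tEl hE j ∈ K := by
    intro j
    obtain ⟨x', -, hjn, -⟩ := tEl_conj_pt hE j
    have hf := c_for (pvv j) hjn
    simp only [pF, ifB_eq_true] at hf
    obtain ⟨j', ej, hj'⟩ := (W _ (pvv j) rfl hjn).2 (hall _ (blt_lt hf.1))
    obtain ⟨x'', -, hjn', -⟩ := tEl_conj_pt hE j'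
    rw [← tEl_eq_of_pt hE hcard hlev hjn' ej]
    exact hj'
  have hDK : ∀ y ∈ DH hE, y ∈ K := by
    intro y hy
    obtain ⟨j, -, rfl⟩ := exists_idx hE hcard hy
    exact hEl j
  have hle : normalClosure (DH hE) ≤ K := by
    unfold normalClosure
    rw [closure_le]
    intro y hy
    obtain ⟨a, ha, hc⟩ := Group.mem_conjugatesOfSet_iff.1 hy
    obtain ⟨c, rfl⟩ := isConj_iff.1 hc
    exact hDK _ (hr5.dc c a ha)
  rcases hs.eq_bot_or_eq_top_of_normal (normalClosure (DH hE)) inferInstance with h | h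
  · exfalso
    have hd1 : O8.tEl hE i ∈ normalClosure (DH hE) := subset_normalClosure hd
    rw [h, Subgroup.mem_bot] at hd1
    apply hd2
    refine ⟨hd, ?_⟩
    rw [hd1]
    exact Commute.one_left _
  · rw [h] at hle
    exact top_le_iff.1 hle

include hbase hcard hlev in
theorem N_ne_top (hs : IsSimpleGroup H) : NN hE ≠ ⊤ := by
  intro e
  have hn : (zpowers (zE hE) : Subgroup H).Normal := by
    refine ⟨fun x hx g => ?_⟩
    have hg : g ∈ NN hE := by rw [e]; trivial
    exact (mem_normalizer_iff.1 hg x).1 hx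
  rcases hs.eq_bot_or_eq_top_of_normal _ hn with h | h
  · rw [zpowers_eq_bot] at h
    exact hz1 hE h
  · have h1 : Nat.card (zpowers (zE hE) : Subgroup H) = Nat.card H := by
      rw [h, Subgroup.card_top]
    rw [Nat.card_zpowers, hcard] at h1
    have h2 : orderOf (zE hE) ∣ 3 := orderOf_dvd_of_pow_eq_one (hz3 hE hbase)
    have h3 := Nat.le_of_dvd (by norm_num) h2
    omega

include hbase hcard hlev in
/-- The main result on the normalizer. -/
theorem key (hs : IsSimpleGroup H) : IsCoatom (NN hE) ∧ derivedSeries (NN hE) 10 ≠ derivedSeries (NN hE) 9 := by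
  have hr5 := raw5_H hE hcard hlev hbase
  refine ⟨coatom_norm hr5 (N_ne_top hE hbase hcard hlev hs) ?_, ne_of_solv (solv_N hE hbase hcard hlev) (derived_ne hE hbase hcard hlev)⟩
  intro K hK d hd hd2 hdK
  exact K_top hE hbase hcard hlev hs hK hd hd2 hdK

end

end Cfsg.Agent.Lib.FiMax
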